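import Cfsg.Agent.H668.Five.Rows
import Cfsg.Agent.H978.Exo.Fi

/-!
# The rows `Fi22`, `Fi23`, `Fi24'` of S4874 (helper287, task 4258)

In a group generated by 3-transpositions along a path `a - b - c`, `e - f - g` of the diagram, `a b c` has order 4 and
commutes with the group `A₄` in `⟨e, f, g⟩`.
-/

set_option autoImplicit false

namespace Cfsg.Agent.H287.Five

open Cfsg Cfsg.Spor Cfsg.Agent.H668.Five Cfsg.Agent.H978.Exo.Fi

section Gen

variable {G : Type*} [Group G]

theorem braid {a b : G} (ha : a * a = 1) (hb : b * b = 1) (h : (a * b) ^ 3 = 1) : a * b * a = b * a * b := by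
  have e1 : a⁻¹ = a := inv_eq_of_mul_eq_one_left ha
  have e2 : b⁻¹ = b := inv_eq_of_mul_eq_one_left hb
  have h2 : (a * b * a) * (b * a * b) = 1 := by rw [← h, pow_succ, pow_two]; group
  rw [eq_inv_of_mul_eq_one_left h2]
  simp only [mul_inv_rev, e1, e2, mul_assoc]

/-- the square of `a b c` -/
theorem sq_abc {a b c : G} (hb : b * b = 1) (hab : a * b * a = b * a * b) (hbc : b * c * b = c * b * c)
    (hac : a * c = c * a) : a * b * c * (a * b * c) = b * (a * c) * b := by
  calc a * b * c * (a * b * c) = a * b * (c * a) * b * c := by group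
    _ = a * b * (a * c) * b * c := by rw [hac]
    _ = (a * b * a) * (c * b * c) := by group
    _ = (b * a * b) * (b * c * b) := by rw [hab, hbc]
    _ = b * a * (b * b) * c * b := by group
    _ = b * (a * c) * b := by rw [hb]; group

theorem order_four {a b c w : G} (ha : a * a = 1) (hb : b * b = 1) (hc : c * c = 1) (hw : w * w = 1)
    (hab : (a * b) ^ 3 = 1) (hbc : (b * c) ^ 3 = 1) (hac : a * c = c * a) (hwa : w * a = a * w) (hwb : w * b = b * w)
    (hwc : w * c = c * w) (hne : a ≠ c) : orderOf (a * b * c * w) = 4 := by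
  have h1 := sq_abc hb (braid ha hb hab) (braid hb hc hbc) hac
  have hcw : Commute w (a * b * c) := ((show Commute w a from hwa).mul_right hwb).mul_right hwc
  have h2 : (a * b * c * w) ^ 2 = b * (a * c) * b := by
    rw [hcw.symm.mul_pow, pow_two w, hw, mul_one, pow_two, h1]
  have h3 : (a * b * c * w) ^ 4 = 1 := by
    calc (a * b * c * w) ^ 4 = (a * b * c * w) ^ 2 * (a * b * c * w) ^ 2 := by rw [← pow_add]
      _ = b * (a * c) * (b * b) * (a * c) * b := by rw [h2]; group
      _ = b * (a * c * (a * c)) * b := by rw [hb]; group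
      _ = b * (a * c * (c * a)) * b := by rw [← hac]
      _ = b * (a * (c * c) * a) * b := by group
      _ = 1 := by rw [hc, mul_one, ha, mul_one, hb]
  have h4 : orderOf (a * b * c * w) = 2 ^ (1 + 1) := by
    refine orderOf_eq_prime_pow (p := 2) ?_ ?_
    · rw [pow_one, h2]
      intro h5
      apply hne
      have h6 : a * c = 1 := by
        calc a * c = b * (b * (a * c) * b) * b := by
              calc a * c = (b * b) * (a * c) * (b * b) := by rw [hb]; group
                _ = _ := by group
          _ = 1 := by rw [h5, mul_one, hb]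
      rw [eq_inv_of_mul_eq_one_left h6]
      exact inv_eq_of_mul_eq_one_left hc
    · exact h3
  exact h4.trans (by norm_num)

/-- the group `A₄` in `⟨e, f, g⟩` -/
theorem a4 {e f g : G} (he : e * e = 1) (hf : f * f = 1) (hg : g * g = 1) (hef : (e * f) ^ 3 = 1)
    (hfg : (f * g) ^ 3 = 1) (heg : e * g = g * e) (hne : e ≠ g) :
    (e * g) * (e * g) = 1 ∧ (f * (e * g) * f) * (f * (e * g) * f) = 1 ∧
    (e * g) * (f * (e * g) * f) = (f * (e * g) * f) * (e * g) ∧ f * (e * g) * f ≠ 1 ∧
    (e * f) * (e * g) * (e * f)⁻¹ = (f * (e * g) * f) * (e * g) ∧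
    (e * f) * (f * (e * g) * f) * (e * f)⁻¹ = e * g := by
  have b1 := braid he hf hef
  have b2 := braid hf hg hfg
  have i1 : e⁻¹ = e := inv_eq_of_mul_eq_one_left he
  have i2 : f⁻¹ = f := inv_eq_of_mul_eq_one_left hf
  have i3 : g⁻¹ = g := inv_eq_of_mul_eq_one_left hg
  have h1 : (e * g) * (e * g) = 1 := by
    calc (e * g) * (e * g) = e * (g * e) * g := by group
      _ = e * (e * g) * g := by rw [heg]
      _ = (e * e) * (g * g) := by group
      _ = 1 := by rw [he, hg, one_mul]
  have h2 : (f * (e * g) * f) * (f * (e * g) * f) = 1 := by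
    calc (f * (e * g) * f) * (f * (e * g) * f) = f * (e * g) * (f * f) * (e * g) * f := by group
      _ = f * ((e * g) * (e * g)) * f := by rw [hf]; group
      _ = 1 := by rw [h1, mul_one, hf]
  -- `e (f e g f) e = (f e g f) (e g)`
  have h3 : e * (f * (e * g) * f) * e = (f * (e * g) * f) * (e * g) := by
    calc e * (f * (e * g) * f) * e = (e * f * e) * g * f * e := by group
      _ = f * e * (f * g * f) * e := by rw [b1]; group
      _ = f * e * (g * f * g) * e := by rw [b2]
      _ = f * (e * g) * f * (g * e) := by group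
      _ = (f * (e * g) * f) * (e * g) := by rw [heg]
  have h4 : (e * g) * (f * (e * g) * f) = (f * (e * g) * f) * (e * g) := by
    calc (e * g) * (f * (e * g) * f) = e * g * f * (e * g) * f := by group
      _ = e * g * f * (g * e) * f := by rw [heg]
      _ = e * (g * f * g) * e * f := by group
      _ = e * (f * g * f) * e * f := by rw [b2]
      _ = e * f * g * (f * e * f) := by group
      _ = e * f * g * (e * f * e) := by rw [b1]
      _ = e * f * (g * e) * f * e := by group
      _ = e * (f * (e * g) * f) * e := by rw [heg]; group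
      _ = _ := h3
  have h5 : e * g ≠ 1 := mul_ne_one' hg hne
  refine ⟨h1, h2, h4, ?_, ?_, ?_⟩
  · intro h6
    apply h5
    calc e * g = f * (f * (e * g) * f) * f := by
          calc e * g = (f * f) * (e * g) * (f * f) := by rw [hf]; group
            _ = _ := by group
      _ = 1 := by rw [h6, mul_one, hf]
  · rw [mul_inv_rev, i1, i2, ← h3]; group
  · rw [mul_inv_rev, i1, i2]
    calc e * f * (f * (e * g) * f) * (f * e) = e * (f * f) * (e * g) * (f * f) * e := by group
      _ = (e * e) * (g * e) := by rw [hf]; group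
      _ = e * g := by rw [he, one_mul, heg]

variable [Finite G]

/-- `NN v` from a subgroup `A₄` commuting with `v` -/
theorem nn_of_a4 {v t t' h : G} (ht : t * t = 1) (ht' : t' * t' = 1) (hc : t * t' = t' * t) (h1 : t' ≠ 1)
    (hh : h ^ 3 = 1) (e1 : h * t * h⁻¹ = t' * t) (e2 : h * t' * h⁻¹ = t) (vt : t * v = v * t) (vt' : t' * v = v * t')
    (vh : h * v = v * h) : NN v := by
  let C := Subgroup.centralizer ({v} : Set G)
  have hmem : ∀ x, x * v = v * x → x ∈ C := fun x hx => Subgroup.mem_centralizer_singleton_iff.2 hx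
  let T : ↥C := ⟨t, hmem t vt⟩
  let T' : ↥C := ⟨t', hmem t' vt'⟩
  let H : ↥C := ⟨h, hmem h vh⟩
  have hS : ∀ x ∈ ({T, T'} : Set ↥C), x * x = 1 := by
    rintro x (rfl | rfl)
    · exact Subtype.ext ht
    · exact Subtype.ext ht'
  have hcc : ∀ x ∈ ({T, T'} : Set ↥C), ∀ y ∈ ({T, T'} : Set ↥C), x * y = y * x := by
    rintro x (rfl | rfl) y (rfl | rfl)
    · rfl
    · exact Subtype.ext hc
    · exact Subtype.ext hc.symm
    · rfl
  have hcl : ∀ x ∈ Subgroup.closure ({T, T'} : Set ↥C), ∀ y ∈ Subgroup.closure ({T, T'} : Set ↥C), x * y = y * x := by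
    have h1 : Subgroup.closure ({T, T'} : Set ↥C) ≤
        Subgroup.centralizer (Subgroup.closure ({T, T'} : Set ↥C) : Set ↥C) := by
      rw [Subgroup.centralizer_closure, Subgroup.closure_le]
      intro x hx
      exact Subgroup.mem_centralizer_iff.2 fun y hy => hcc y hy x hx
    intro x hx y hy
    exact (Subgroup.mem_centralizer_iff.1 (h1 hx) y hy).symm
  have hsq : ∀ x (_ : x ∈ Subgroup.closure ({T, T'} : Set ↥C)), x ^ 2 = 1 := by
    intro x hx
    induction hx using Subgroup.closure_induction with
    | mem x hx => rw [pow_two]; exact hS x hx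
    | one => exact one_pow _
    | mul x y hx hy ihx ihy =>
      rw [(show Commute x y from hcl x hx y hy).mul_pow, ihx, ihy, one_mul]
    | inv x hx ih => rw [inv_pow, ih, inv_one]
  have hTm : T ∈ Subgroup.closure ({T, T'} : Set ↥C) := Subgroup.subset_closure (Or.inl rfl)
  have hTm' : T' ∈ Subgroup.closure ({T, T'} : Set ↥C) := Subgroup.subset_closure (Or.inr rfl)
  refine not_compl_of_act (X := ↥C) (Subgroup.closure ({T, T'} : Set ↥C)) ?_ H ?_ ?_ hTm ?_
  · intro x
    refine ⟨1, Subtype.ext ?_⟩
    have := hsq x x.2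
    simpa using this
  · have h3 : H ^ 3 = 1 := Subtype.ext hh
    exact Odd.of_dvd_nat (by decide) (orderOf_dvd_of_pow_eq_one h3)
  · intro x hx
    induction hx using Subgroup.closure_induction with
    | mem x hx =>
      rcases hx with rfl | rfl
      · have h3 : H * T * H⁻¹ = T' * T := Subtype.ext e1
        rw [h3]; exact mul_mem hTm' hTm
      · have h3 : H * T' * H⁻¹ = T := Subtype.ext e2
        rw [h3]; exact hTm
    | one => rw [mul_one, mul_inv_cancel]; exact one_mem _
    | mul x y hx hy ihx ihy =>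
      have h3 : H * (x * y) * H⁻¹ = (H * x * H⁻¹) * (H * y * H⁻¹) := by group
      rw [h3]; exact mul_mem ihx ihy
    | inv x hx ih =>
      have h3 : H * x⁻¹ * H⁻¹ = (H * x * H⁻¹)⁻¹ := by group
      rw [h3]; exact inv_mem ih
  · intro h3
    apply h1
    have h4 : h * t = t * h := congrArg Subtype.val h3
    rw [h4, mul_inv_cancel_right] at e1
    exact (mul_eq_right.1 e1.symm)

end Gen

/-- the diagram `a - b - c`, `e - f - g` and an involution `w`, in a group `G` -/
theorem good_of_rel {G : Type*} [Group G] [Finite G] {a b c w e f g : G} (ha : a * a = 1) (hb : b * b = 1)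
    (hc : c * c = 1) (hw : w * w = 1) (hab : (a * b) ^ 3 = 1) (hbc : (b * c) ^ 3 = 1) (hac : a * c = c * a)
    (hwa : w * a = a * w) (hwb : w * b = b * w) (hwc : w * c = c * w) (hne : a ≠ c) (he : e * e = 1) (hf : f * f = 1)
    (hg : g * g = 1) (hef : (e * f) ^ 3 = 1) (hfg : (f * g) ^ 3 = 1) (heg : e * g = g * e) (hne' : e ≠ g)
    (ve : e * (a * b * c * w) = a * b * c * w * e) (vf : f * (a * b * c * w) = a * b * c * w * f)
    (vg : g * (a * b * c * w) = a * b * c * w * g) : Good G := by
  obtain ⟨h1, h2, h3, h4, h5, h6⟩ := a4 he hf hg hef hfg heg hne'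
  have ce : Commute e (a * b * c * w) := ve
  have cf : Commute f (a * b * c * w) := vf
  have cg : Commute g (a * b * c * w) := vg
  refine Or.inl ⟨a * b * c * w, order_four ha hb hc hw hab hbc hac hwa hwb hwc hne, ?_⟩
  exact nn_of_a4 (t := e * g) (t' := f * (e * g) * f) (h := e * f) h1 h2 h3 h4 hef h5 h6 (ce.mul_left cg)
    ((cf.mul_left (ce.mul_left cg)).mul_left cf) (ce.mul_left cf)

/-! ### `Fi22` -/

section Fi22

open Spor.Fi22

theorem fi22_ac : (PresentedGroup.of .a : Spor.Fi22) ≠ PresentedGroup.of .c := by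
  intro h
  have hcb := fi22_step (x := .d) (y := .c) (z := .b) (by decide) (by decide)
    (fi22_step (x := .a) (y := .c) (z := .d) (by decide) (by decide) h).symm
  exact fi22_ab (h.trans hcb)

theorem fi22_eg : (PresentedGroup.of .e : Spor.Fi22) ≠ PresentedGroup.of .g := by
  intro h
  have hef := fi22_step (x := .d) (y := .e) (z := .f) (by decide) (by decide)
    (fi22_step (x := .g) (y := .e) (z := .d) (by decide) (by decide) h.symm).symm
  exact fi22_fg (hef.symm.trans h)

theorem good_fi22 [Finite Spor.Fi22] : Good Spor.Fi22 := by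
  have hn : ∀ x : Gen, x ∈ coxNodes edges := by intro x; cases x <;> decide
  have h3 : ∀ x y : Gen, coxLabel edges x y = 3 → ((PresentedGroup.of x : Spor.Fi22) * PresentedGroup.of y) ^ 3 = 1 :=
    fun x y h => cox_pow (hn x) (hn y) 3 h
  have hs : ∀ x : Gen, (PresentedGroup.of x : Spor.Fi22) * PresentedGroup.of x = 1 := fun x => sq (hn _)
  have hcm : ∀ x y : Gen, coxLabel edges x y = 2 →
      Commute (PresentedGroup.of x : Spor.Fi22) (PresentedGroup.of y) := fun x y h => comm (hn x) (hn y) h
  refine good_of_rel (G := Spor.Fi22) (a := PresentedGroup.of .a) (b := PresentedGroup.of .b)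
    (c := PresentedGroup.of .c) (w := 1) (e := PresentedGroup.of .e) (f := PresentedGroup.of .f)
    (g := PresentedGroup.of .g) (hs _) (hs _) (hs _) (one_mul 1) (h3 _ _ (by decide)) (h3 _ _ (by decide))
    (hcm _ _ (by decide)) (by simp) (by simp) (by simp) fi22_ac (hs _) (hs _) (hs _) (h3 _ _ (by decide))
    (h3 _ _ (by decide)) (hcm _ _ (by decide)) fi22_eg ?_ ?_ ?_
  · exact ((((hcm .e .a (by decide)).mul_right (hcm .e .b (by decide))).mul_right (hcm .e .c (by decide))).mul_right
      (Commute.one_right _))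
  · exact ((((hcm .f .a (by decide)).mul_right (hcm .f .b (by decide))).mul_right (hcm .f .c (by decide))).mul_right
      (Commute.one_right _))
  · exact ((((hcm .g .a (by decide)).mul_right (hcm .g .b (by decide))).mul_right (hcm .g .c (by decide))).mul_right
      (Commute.one_right _))

theorem row_fi22 {S : Type*} [Group S] [Finite S] (h : Spor.IsoFi22 S) : Row S := by
  obtain ⟨e⟩ := h
  have : Finite Spor.Fi22 := Finite.of_equiv S e.toEquiv
  exact Or.inl (good_fi22.map e.symm.toMonoidHom e.symm.injective)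

end Fi22

/-! ### `Fi23` -/

section Fi23

open Spor.Fi23

theorem fi23_ac : (PresentedGroup.of .a : Spor.Fi23) ≠ PresentedGroup.of .c := by
  intro h
  have hcb := fi23_step (x := .d) (y := .c) (z := .b) (by decide) (by decide)
    (fi23_step (x := .a) (y := .c) (z := .d) (by decide) (by decide) h).symm
  exact fi23_ab (h.trans hcb)

theorem fi23_eg : (PresentedGroup.of .e : Spor.Fi23) ≠ PresentedGroup.of .g := by
  intro h
  -- `e = g`, then `g = j`
  have hef := fi23_step (x := .d) (y := .e) (z := .f) (by decide) (by decide)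
    (fi23_step (x := .g) (y := .e) (z := .d) (by decide) (by decide) h.symm).symm
  have hfg := hef.symm.trans h
  exact fi23_gj (fi23_step (x := .f) (y := .g) (z := .j) (by decide) (by decide) hfg)

theorem good_fi23 [Finite Spor.Fi23] : Good Spor.Fi23 := by
  have hn : ∀ x : Gen, x ∈ coxNodes edges := by intro x; cases x <;> decide
  have h3 : ∀ x y : Gen, coxLabel edges x y = 3 → ((PresentedGroup.of x : Spor.Fi23) * PresentedGroup.of y) ^ 3 = 1 :=
    fun x y h => cox_pow (hn x) (hn y) 3 h
  have hs : ∀ x : Gen, (PresentedGroup.of x : Spor.Fi23) * PresentedGroup.of x = 1 := fun x => sq (hn _)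
  have hcm : ∀ x y : Gen, coxLabel edges x y = 2 →
      Commute (PresentedGroup.of x : Spor.Fi23) (PresentedGroup.of y) := fun x y h => comm (hn x) (hn y) h
  refine good_of_rel (G := Spor.Fi23) (a := PresentedGroup.of .a) (b := PresentedGroup.of .b)
    (c := PresentedGroup.of .c) (w := 1) (e := PresentedGroup.of .e) (f := PresentedGroup.of .f)
    (g := PresentedGroup.of .g) (hs _) (hs _) (hs _) (one_mul 1) (h3 _ _ (by decide)) (h3 _ _ (by decide))
    (hcm _ _ (by decide)) (by simp) (by simp) (by simp) fi23_ac (hs _) (hs _) (hs _) (h3 _ _ (by decide))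
    (h3 _ _ (by decide)) (hcm _ _ (by decide)) fi23_eg ?_ ?_ ?_
  · exact ((((hcm .e .a (by decide)).mul_right (hcm .e .b (by decide))).mul_right (hcm .e .c (by decide))).mul_right
      (Commute.one_right _))
  · exact ((((hcm .f .a (by decide)).mul_right (hcm .f .b (by decide))).mul_right (hcm .f .c (by decide))).mul_right
      (Commute.one_right _))
  · exact ((((hcm .g .a (by decide)).mul_right (hcm .g .b (by decide))).mul_right (hcm .g .c (by decide))).mul_right
      (Commute.one_right _))

theorem row_fi23 {S : Type*} [Group S] [Finite S] (h : Spor.IsoFi23 S) : Row S := by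
  obtain ⟨e⟩ := h
  have : Finite Spor.Fi23 := Finite.of_equiv S e.toEquiv
  exact Or.inl (good_fi23.map e.symm.toMonoidHom e.symm.injective)

end Fi23

/-! ### `Fi24'` -/

section Fi24

open Spor.Fi24

theorem fi24_la : (PresentedGroup.of .l : Spor.Fi24) ≠ PresentedGroup.of .a := by
  intro h
  have hak := fi24_step (x := .b) (y := .a) (z := .k) (by decide) (by decide)
    (fi24_step (x := .l) (y := .a) (z := .b) (by decide) (by decide) h).symm
  exact fi24_lk (h.trans hak)

theorem fi24_fj : (PresentedGroup.of .f : Spor.Fi24) ≠ PresentedGroup.of .j := by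
  intro h
  have hfg := fi24_step (x := .e) (y := .f) (z := .g) (by decide) (by decide)
    (fi24_step (x := .j) (y := .f) (z := .e) (by decide) (by decide) h.symm).symm
  exact fi24_gj (hfg.symm.trans h)

theorem good_fi24 [Finite Spor.Fi24'] : Good Spor.Fi24' := by
  have hn : ∀ x : Gen, x ∈ coxNodes edges := by intro x; cases x <;> decide
  have h3 : ∀ x y : Gen, coxLabel edges x y = 3 → ((PresentedGroup.of x : Spor.Fi24) * PresentedGroup.of y) ^ 3 = 1 :=
    fun x y h => cox_pow (hn x) (hn y) 3 h
  have hs : ∀ x : Gen, (PresentedGroup.of x : Spor.Fi24) * PresentedGroup.of x = 1 := fun x => sq (hn _)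
  have hcm : ∀ x y : Gen, coxLabel edges x y = 2 →
      Commute (PresentedGroup.of x : Spor.Fi24) (PresentedGroup.of y) := fun x y h => comm (hn x) (hn y) h
  have hm : ∀ x y : Gen, coxLabel edges x y = 3 →
      (PresentedGroup.of x : Spor.Fi24) * PresentedGroup.of y ∈ commutator Spor.Fi24 :=
    fun x y h => mem_comm_of (hs x) (hs y) (h3 x y h)
  have hm2 : ∀ x y z : Gen, (PresentedGroup.of x : Spor.Fi24) * PresentedGroup.of y ∈ commutator Spor.Fi24 →
      coxLabel edges y z = 3 → (PresentedGroup.of x : Spor.Fi24) * PresentedGroup.of z ∈ commutator Spor.Fi24 := by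
    intro x y z h1 h2
    have h4 := Subgroup.mul_mem _ h1 (hm y z h2)
    have h5 : (PresentedGroup.of x : Spor.Fi24) * PresentedGroup.of y * (PresentedGroup.of y * PresentedGroup.of z) =
        PresentedGroup.of x * PresentedGroup.of z := by
      calc _ = (PresentedGroup.of x : Spor.Fi24) * (PresentedGroup.of y * PresentedGroup.of y) * PresentedGroup.of z := by group
        _ = _ := by rw [hs, mul_one]
    rwa [h5] at h4
  have hlk : (PresentedGroup.of .l : Spor.Fi24) * PresentedGroup.of .k ∈ commutator Spor.Fi24 := hm .l .k (by decide)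
  have hac : (PresentedGroup.of .a : Spor.Fi24) * PresentedGroup.of .c ∈ commutator Spor.Fi24 :=
    hm2 .a .b .c (hm .a .b (by decide)) (by decide)
  have hfg : (PresentedGroup.of .f : Spor.Fi24) * PresentedGroup.of .g ∈ commutator Spor.Fi24 := hm .f .g (by decide)
  have hfj : (PresentedGroup.of .f : Spor.Fi24) * PresentedGroup.of .j ∈ commutator Spor.Fi24 :=
    hm2 .f .g .j hfg (by decide)
  obtain ⟨e1, e2, e3, e4, e5, e6⟩ := a4 (G := Spor.Fi24) (e := PresentedGroup.of .f) (f := PresentedGroup.of .g)
    (g := PresentedGroup.of .j) (hs _) (hs _) (hs _) (h3 _ _ (by decide)) (h3 _ _ (by decide)) (hcm _ _ (by decide)) fi24_fj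
  have ho := order_four (G := Spor.Fi24) (a := PresentedGroup.of .l) (b := PresentedGroup.of .k)
    (c := PresentedGroup.of .a) (w := PresentedGroup.of .c) (hs _) (hs _) (hs _) (hs _) (h3 _ _ (by decide))
    (h3 _ _ (by decide)) (hcm _ _ (by decide)) (hcm _ _ (by decide)) (hcm _ _ (by decide)) (hcm _ _ (by decide)) fi24_la
  have hv : (PresentedGroup.of .l : Spor.Fi24) * PresentedGroup.of .k * PresentedGroup.of .a * PresentedGroup.of .c ∈
      commutator Spor.Fi24 := by
    have h4 := mul_mem hlk hac
    rwa [← mul_assoc] at h4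
  have hnorm : (commutator Spor.Fi24).Normal := inferInstance
  have ht' : (PresentedGroup.of .g : Spor.Fi24) * (PresentedGroup.of .f * PresentedGroup.of .j) *
      PresentedGroup.of .g ∈ commutator Spor.Fi24 := by
    have h4 := hnorm.conj_mem _ hfj (PresentedGroup.of .g)
    rwa [inv_eq_of_mul_eq_one_left (hs .g)] at h4
  have hc : ∀ x : Gen, coxLabel edges x .l = 2 → coxLabel edges x .k = 2 → coxLabel edges x .a = 2 →
      coxLabel edges x .c = 2 → Commute (PresentedGroup.of x : Spor.Fi24) ((PresentedGroup.of .l : Spor.Fi24) *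
        PresentedGroup.of .k * PresentedGroup.of .a * PresentedGroup.of .c) := fun x h1 h2 h3 h4 =>
    (((hcm x .l h1).mul_right (hcm x .k h2)).mul_right (hcm x .a h3)).mul_right (hcm x .c h4)
  have cf := hc .f (by decide) (by decide) (by decide) (by decide)
  have cg := hc .g (by decide) (by decide) (by decide) (by decide)
  have cj := hc .j (by decide) (by decide) (by decide) (by decide)
  refine Or.inl ⟨⟨_, hv⟩, ?_, ?_⟩
  · rw [Subgroup.orderOf_mk]; exact ho
  · refine nn_of_a4 (t := ⟨_, hfj⟩) (t' := ⟨_, ht'⟩) (h := ⟨_, hfg⟩) (Subtype.ext e1) (Subtype.ext e2)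
      (Subtype.ext e3) (fun h => e4 (congrArg Subtype.val h)) (Subtype.ext (h3 .f .g (by decide))) (Subtype.ext e5)
      (Subtype.ext e6) (Subtype.ext (cf.mul_left cj)) (Subtype.ext ((cg.mul_left (cf.mul_left cj)).mul_left cg))
      (Subtype.ext (cf.mul_left cg))

theorem row_fi24 {S : Type*} [Group S] [Finite S] (h : Spor.IsoFi24' S) : Row S := by
  obtain ⟨e⟩ := h
  have : Finite Spor.Fi24' := Finite.of_equiv S e.toEquiv
  exact Or.inl (good_fi24.map e.symm.toMonoidHom e.symm.injective)

end Fi24

end Cfsg.Agent.H287.Five
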